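import Cfsg.Agent.Lib.Fusion.Conf

/-!
# A saturated fusion system generated by automorphisms of one minimal centric subgroup
-/

set_option autoImplicit false

namespace Cfsg.Lib.BiF

open Subgroup Cfsg.Lib.Transfer Cfsg.Lib.Fusion
open Cfsg.FusionSystem hiding inv_mem

variable {G : Type*} [Group G] {Q P : Subgroup G} {Δ : Subgroup (MulAut Q)} {f : G → G} {p : ℕ}

/-- All injective homomorphisms. -/
theorem exists_univ (G : Type*) [Group G] : ∃ E : FusionSystem (⊤ : Subgroup G),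
    ∀ P f, Mor E P f ↔ HomOn P f ∧ Set.InjOn f P := by
  refine IsFusionPred.exists ⟨?_, fun _ => le_top, fun _ _ _ => mem_top _, fun h => h.1, fun h => h.2, ?_, ?_, ?_⟩
  · exact fun h e => ⟨h.1.congr e, fun x hx y hy k => h.2 hx hy (by rwa [e x hx, e y hy] at k)⟩
  · exact fun _ _ => ⟨homOn_conj _ _, fun x _ y _ k => by simpa using k⟩
  · exact fun hf hg h => ⟨hf.1.comp hg.1 h, fun x hx y hy k => hf.2 hx hy (hg.2 (h x hx) (h y hy) k)⟩
  · intro P f h
    obtain ⟨e, he⟩ := h.1.exists_equiv h.2 rfl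
    refine ⟨fn (P.subtype.comp e.symm.toMonoidHom), ⟨homOn_fn _, injOn_fn
      (P.subtype_injective.comp e.symm.injective)⟩, fun x hx => ?_⟩
    rw [fn_apply _ (mem_im_of_mem f hx)]
    have : (⟨f x, mem_im_of_mem f hx⟩ : im f P) = e ⟨x, hx⟩ := Subtype.ext (he ⟨x, hx⟩).symm
    simp [this]

/-- `P` is not conjugate to a proper subgroup of `Q`. -/
def Big (Q P : Subgroup G) : Prop := ∀ s : G, (∀ x ∈ P, s * x * s⁻¹ ∈ Q) → Nat.card Q ≤ Nat.card P

/-- The shape of the maps on big subgroups. -/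
def Shp (Δ : Subgroup (MulAut Q)) (P : Subgroup G) (f : G → G) : Prop :=
  (∃ s : G, ∀ x ∈ P, f x = s * x * s⁻¹) ∨
    ∃ s t : G, ∃ α ∈ Δ, (∀ x ∈ P, s * x * s⁻¹ ∈ Q) ∧ ∀ x ∈ P, f x = t * ext α (s * x * s⁻¹) * t⁻¹

variable [Finite G]

theorem Big.mono {R : Subgroup G} (h : Big Q P) (hR : P ≤ R) : Big Q R := fun s k =>
  (h s fun x hx => k x (hR hx)).trans (card_le_of_le hR)

theorem Big.surj (h : Big Q P) {s : G} (k : ∀ x ∈ P, s * x * s⁻¹ ∈ Q) {y : G} (hy : y ∈ Q) :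
    ∃ x ∈ P, y = s * x * s⁻¹ := by
  have e : s ⋆ P = Q := eq_of_le_of_card_ge (conj_le_iff.2 k) (by rw [card_conj]; exact h s k)
  obtain ⟨x, hx, rfl⟩ := e.ge hy
  exact ⟨x, hx, rfl⟩

theorem Shp.big (h : Shp Δ P f) (hP : Big Q P) (hf : HomOn P f) (hi : Set.InjOn f P) : Big Q (im f P) := by
  intro u k
  rw [hf.card_im hi]
  rcases h with ⟨s, e⟩ | ⟨s, t, α, -, e, -⟩
  · exact hP (u * s) fun x hx => by simpa [e x hx, mul_assoc] using k _ (mem_im_of_mem f hx)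
  · exact hP s e

theorem cj_mem (h1 : autInducedBy ⊤ Q ≤ Δ) (g : G) : cjA Q g ∈ Δ := h1 (cjA_mem_autInducedBy (mem_top g))

theorem Shp.comp (h1 : autInducedBy ⊤ Q ≤ Δ) {R : Subgroup G} {g k : G → G} (hP : Big Q P) (hf : Shp Δ P f)
    (hg : Shp Δ R g) (h : ∀ x ∈ P, f x ∈ R) (hk : ∀ x ∈ P, k x = g (f x)) : Shp Δ P k := by
  rcases hf with ⟨s, e⟩ | ⟨s, t, α, hα, k, e⟩ <;> rcases hg with ⟨s', e'⟩ | ⟨s', t', α', hα', k', e'⟩
  · exact .inl ⟨s' * s, fun x hx => by rw [hk x hx, e' _ (h x hx), e x hx]; group⟩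
  · refine .inr ⟨s' * s, t', α', hα', fun x hx => ?_, fun x hx => ?_⟩
    · simpa [e x hx, mul_assoc] using k' _ (h x hx)
    · rw [hk x hx, e' _ (h x hx), e x hx]; simp [mul_assoc]
  · exact .inr ⟨s, s' * t, α, hα, k, fun x hx => by rw [hk x hx, e' _ (h x hx), e x hx]; group⟩
  · have n : s' * t ∈ normalizer (Q : Set G) := mem_normalizer_of_conj_mem fun y hy => by
      obtain ⟨x, hx, d⟩ := hP.surj k (ext_mem α⁻¹ hy)
      have := k' _ (h x hx)
      rw [e x hx, ← d, ext_ext_inv] at this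
      simpa [mul_assoc] using this
    refine .inr ⟨s, t', α' * cjA Q (s' * t) * α, mul_mem (mul_mem hα' (cj_mem h1 _)) hα, k, fun x hx => ?_⟩
    rw [hk x hx, e' _ (h x hx), e x hx, ext_mul, ext_mul, ext_cjA n (ext_mem α (k x hx))]
    simp [mul_assoc]

/-- The generating maps. -/
def Gn (Δ : Subgroup (MulAut Q)) (R : Subgroup G) (g : G → G) : Prop := R = Q ∧ ∃ α ∈ Δ, g = ext α

theorem shp_of_gen (h1 : autInducedBy ⊤ Q ≤ Δ) {E : FusionSystem (⊤ : Subgroup G)}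
    (hE : ∀ R g, Gn Δ R g → Mor E R g) (h : Gen ⊤ (Gn Δ) P f) : Big Q P → Shp Δ P f := by
  induction h with
  | of h hP e =>
    obtain ⟨rfl, α, hα, rfl⟩ := h
    exact fun _ => .inr ⟨1, 1, α, hα, fun x hx => by simpa using hP hx, fun x hx => by simpa using e x hx⟩
  | inv h e =>
    obtain ⟨rfl, α, hα, rfl⟩ := h
    refine fun _ => .inr ⟨1, 1, α⁻¹, inv_mem hα, fun x hx => ?_, fun x hx => ?_⟩
    · simpa using (e x hx).2 ▸ ext_mem α (e x hx).1
    · simpa using (congrArg (ext α⁻¹) (e x hx).2).symm.trans (ext_inv_ext α _) |>.symm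
  | conj _ _ e => exact fun _ => .inl ⟨_, e⟩
  | comp hf _ h e ih1 ih2 =>
    intro hP
    have m := hf.mor le_rfl hE
    exact (ih1 hP).comp h1 hP (ih2 (((ih1 hP).big hP m.homOn m.injOn).mono (im_le_iff.2 h))) h e

theorem build [Fact p.Prime] (hG : IsPGroup p G) (h1 : autInducedBy ⊤ Q ≤ Δ)
    (h2 : ¬ p ∣ (autInducedBy ⊤ Q).relIndex Δ)
    (h3 : ∀ α ∈ Δ, α ∈ autInducedBy ⊤ Q ∨ extr ⊤ Q (ext α) ≤ Q)
    (h4 : ∀ U < Q, ∃ α ∈ Δ, ¬ centralizerIn ⊤ (im (ext α) U) ≤ im (ext α) U) :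
    ∃ F : FusionSystem (⊤ : Subgroup G), Sat F p ∧ ∀ α ∈ Δ, Mor F Q (ext α) := by
  obtain ⟨E, hE⟩ := exists_univ G
  have hX : ∀ R g, Gn Δ R g → Mor E R g := by
    rintro _ _ ⟨rfl, α, -, rfl⟩
    exact (hE _ _).2 ⟨homOn_ext α, injOn_ext α _⟩
  obtain ⟨F, hF⟩ := (isFusionPred_gen hX).exists
  have hm : ∀ α ∈ Δ, Mor F Q (ext α) := fun α hα => (hF _ _).2 (.of ⟨rfl, α, hα, rfl⟩ le_rfl fun _ _ => rfl)
  have shp : ∀ {P f}, Mor F P f → Big Q P → Shp Δ P f := fun h => shp_of_gen h1 hX ((hF _ _).1 h)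
  have bc : ∀ P R, Big Q P → F.IsConj P R → Big Q R := fun P R h c => by
    obtain ⟨f, hf, rfl⟩ := isConj_iff.1 c
    exact (shp hf h).big h hf.homOn hf.injOn
  have bQ : Big Q Q := fun _ _ => le_rfl
  have inner : ∀ {P R : Subgroup G} {f : G → G} {s : G}, (∀ x ∈ P, f x = s * x * s⁻¹) →
      ∃ g, Mor F R g ∧ ∀ x ∈ P, g x = f x := fun {_ _ _ s} e =>
    ⟨_, mor_conj F le_top (mem_top s), fun x hx => (e x hx).symm⟩
  refine ⟨F, sat_of_family (hG.to_subgroup ⊤) (H := Big Q) bc (fun P hP _ => ?_) (X := Gn Δ) ?_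
    (fun D hD => le_iff.2 fun P f h => ((hF _ _).1 h).mor le_rfl hD) fun P hc hP => ?_, hm⟩
  · by_cases hs : ∃ s : G, ∀ x ∈ P, s * x * s⁻¹ ∈ Q
    · obtain ⟨s, hs⟩ := hs
      have e : im (fun x => s * x * s⁻¹) P = Q :=
        (mor_conj F le_top (mem_top s)).im_eq_of_card_le hs (hP s hs)
      have nrm : ∀ {R : Subgroup G} {f : G → G} {s t : G} {α : MulAut Q}, Big Q R → im f R = Q →
          (∀ x ∈ R, s * x * s⁻¹ ∈ Q) → (∀ x ∈ R, f x = t * ext α (s * x * s⁻¹) * t⁻¹) →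
          t ∈ normalizer (Q : Set G) := fun {R f s t α} hR i k e => mem_normalizer_of_conj_mem fun y hy => by
        obtain ⟨x, hx, d⟩ := hR.surj k (ext_mem α⁻¹ hy)
        have := i ▸ mem_im_of_mem f hx
        rwa [e x hx, ← d, ext_ext_inv] at this
      refine ⟨Q, e ▸ (mor_conj F le_top (mem_top s)).isConj,
        (fullyAutomized_iff (hG.to_subgroup ⊤)).2 ⟨le_top, ?_⟩, receptive_iff.2 ⟨le_top, fun R f hf i => ?_⟩⟩
      · rwa [show F.autGroup Q = Δ from le_antisymm (fun β hβ => ?_) fun α hα => (hm α hα).mem_autGroup]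
        rcases shp (mor_ext le_top hβ) bQ with ⟨s, e⟩ | ⟨s, t, α, hα, k, e⟩
        · exact h1 (mem_autInducedBy.2 ⟨s, mem_top s, e⟩)
        · have n := nrm bQ (im_ext β) k e
          have n' := mem_normalizer_of_conj_mem k
          rw [show β = cjA Q t * α * cjA Q s from eq_of_ext fun x hx => by
            rw [ext_mul, ext_mul, ext_cjA n' hx, ext_cjA n (ext_mem α (k x hx)), e x hx]]
          exact mul_mem (mul_mem (cj_mem h1 _) hα) (cj_mem h1 _)
      · have hR := bc Q R bQ (isConj_symm (i ▸ hf.isConj))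
        rcases shp hf hR with ⟨s, e⟩ | ⟨s, t, α, hα, k, e⟩
        · exact inner e
        have n := nrm hR i k e
        rcases h3 _ (mul_mem (cj_mem h1 t) hα) with h | h
        · obtain ⟨u, -, hu⟩ := mem_autInducedBy.1 h
          refine inner (s := u * s) fun x hx => ?_
          rw [e x hx, ← ext_cjA n (ext_mem α (k x hx)), ← ext_mul, hu _ (k x hx)]
          group
        refine ⟨f, hf.mono fun g hg => ?_, fun _ _ => rfl⟩
        obtain ⟨-, g1, u, -, g2⟩ := mem_extr.1 hg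
        have : s * g * s⁻¹ ∈ Q := h (mem_extr.2 ⟨mem_top _, mem_normalizer_of_conj_mem fun y hy => ?_, u, mem_top _,
          fun y hy => ?_⟩)
        · obtain ⟨x, hx, d⟩ := hR.surj k this
          rwa [show g = x by simpa using d]
        · obtain ⟨x, hx, rfl⟩ := hR.surj k hy
          simpa [mul_assoc] using k _ (conj_mem_of_mem_normalizer g1 hx)
        · obtain ⟨x, hx, rfl⟩ := hR.surj k hy
          have x1 := conj_mem_of_mem_normalizer g1 hx
          have := g2 x hx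
          rw [e x hx, e _ x1, ← ext_cjA n (ext_mem α (k x hx)), ← ext_cjA n (ext_mem α (k _ x1)), ← ext_mul,
            ← ext_mul] at this
          rw [← this]
          congr 1
          group
    · refine ⟨P, isConj_refl F le_top, (fullyAutomized_iff (hG.to_subgroup ⊤)).2 ⟨le_top, ?_⟩,
        receptive_iff.2 ⟨le_top, fun R f hf i => ?_⟩⟩
      · rw [relIndex_eq_one.2 fun β hβ => ?_]
        · exact (Fact.out : p.Prime).not_dvd_one
        rcases shp (mor_ext le_top hβ) hP with ⟨s, e⟩ | ⟨s, -, -, -, k, -⟩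
        · exact mem_autInducedBy.2 ⟨s, mem_top s, e⟩
        · exact absurd ⟨s, k⟩ hs
      · rcases shp hf (bc P R hP (isConj_symm (i ▸ hf.isConj))) with ⟨s, e⟩ | ⟨s, t, α, -, k, e⟩
        · exact inner e
        refine absurd ⟨t⁻¹, fun y hy => ?_⟩ hs
        obtain ⟨x, hx, rfl⟩ := hf.mem_im.1 (i ▸ hy)
        simpa [e x hx, mul_assoc] using ext_mem α (k x hx)
  · rintro _ _ ⟨rfl, α, hα, rfl⟩
    exact ⟨hm α hα, bQ⟩
  · simp only [Big, not_forall, not_le] at hP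
    obtain ⟨s, k, l⟩ := hP
    have m := mor_conj F (le_top (a := P)) (mem_top s)
    obtain ⟨α, hα, n⟩ := h4 _ (lt_of_le_of_ne (im_le_iff.2 k) fun e => by rw [← e, m.card_im] at l; omega)
    exact absurd (hc.2 _ (isConj_trans m.isConj ((hm α hα).mono (im_le_iff.2 k)).isConj)) n

end Cfsg.Lib.BiF
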